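import Cfsg.Agent.GW.SD.NormThree

/-!
Two orthogonal configurations of norm three share one constituent, whose degree and value at an
involution satisfy two equations.
-/

set_option autoImplicit false
set_option linter.unusedSectionVars false
set_option linter.style.haveILetI false

open scoped ComplexConjugate
open Cfsg

namespace Cfsg.Agent.GW.SD

open Subgroup

universe u

variable {G : Type u} [Group G] [Finite G]

/-- An irreducible character takes an integer value at an involution, of the parity of the degree. -/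
theorem exists_int_involution [Fintype G] (ψ : IrrCharacter G) {t : G} (ht : orderOf t = 2) :
    ∃ d z : ℤ, (ψ : G → ℂ) 1 = d ∧ (ψ : G → ℂ) t = z ∧ 2 ∣ d - z := by
  classical
  have ht1 : t ≠ 1 := fun e => by rw [e, orderOf_one] at ht; norm_num at ht
  have hres := Char.isCharacter_restrict (Char.isCharacter_of_irr ψ.2) (zpowers t)
  obtain ⟨a, ha⟩ := Char.isCharacter_classInner_nat hres (Char.trivialIrr _)
  obtain ⟨d, hd⟩ := Char.isCharacter_one_nat (Char.isCharacter_of_irr ψ.2)
  let e : Fin 2 ≃ zpowers t := Equiv.ofBijective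
    (fun i => ⟨t ^ (i : ℕ), npow_mem_zpowers t i⟩) (by
      rw [Fintype.bijective_iff_injective_and_card]
      refine ⟨fun i j hij => ?_, by rw [Fintype.card_fin, ← Nat.card_eq_fintype_card, Nat.card_zpowers, ht]⟩
      have h1 : t ^ (i : ℕ) = t ^ (j : ℕ) := congrArg Subtype.val hij
      fin_cases i <;> fin_cases j <;> simp_all)
  have h2 : ((ψ : G → ℂ) 1 + (ψ : G → ℂ) t) = 2 * (a : ℂ) := by
    have := ha
    simp only [classInner] at this
    rw [Nat.card_zpowers, ht, ← e.sum_comp, Fin.sum_univ_two] at this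
    simp [e, Char.trivialIrr] at this
    linear_combination 2 * this
  refine ⟨d, 2 * (a : ℤ) - d, by simp [hd], ?_, ⟨(d : ℤ) - a, by ring⟩⟩
  push_cast
  linear_combination h2 - hd

/-- The two nontrivial constituents of an integral vector of norm three. -/
theorem two_constituents [Fintype G] (c : IrrCharacter G → ℤ) (h1 : c (Char.trivialIrr G) = 1)
    (h3 : ∑ ψ, c ψ * c ψ = 3) :
    ∃ A B : IrrCharacter G, A ≠ B ∧ A ≠ Char.trivialIrr G ∧ B ≠ Char.trivialIrr G ∧
      c A * c A = 1 ∧ c B * c B = 1 ∧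
      ∀ ψ, ψ ≠ Char.trivialIrr G → ψ ≠ A → ψ ≠ B → c ψ = 0 := by
  classical
  set S := (Finset.univ.erase (Char.trivialIrr G)).filter (fun ψ => c ψ ≠ 0) with hS
  have hsum : ∑ ψ ∈ S, c ψ * c ψ = 2 := by
    rw [← Finset.add_sum_erase _ _ (Finset.mem_univ (Char.trivialIrr G)), h1] at h3
    rw [hS, Finset.sum_filter_of_ne]
    · linarith
    · intro ψ _ hne h
      exact hne (by rw [h, mul_zero])
  have hge : ∀ ψ ∈ S, 1 ≤ c ψ * c ψ := fun ψ hψ => by
    have := (Finset.mem_filter.1 hψ).2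
    nlinarith [mul_self_pos.2 this]
  have hle : (S.card : ℤ) ≤ 2 := by
    rw [← hsum]
    simpa using Finset.card_nsmul_le_sum S (fun ψ => c ψ * c ψ) 1 hge
  have hcard : S.card = 2 := by
    rcases Nat.lt_or_ge S.card 2 with hlt | hge'
    · exfalso
      rcases Nat.le_one_iff_eq_zero_or_eq_one.1 (by omega : S.card ≤ 1) with h0 | h0
      · rw [Finset.card_eq_zero] at h0; rw [h0] at hsum; simp at hsum
      · obtain ⟨A, hA⟩ := Finset.card_eq_one.1 h0
        rw [hA, Finset.sum_singleton] at hsum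
        have : -2 ≤ c A ∧ c A ≤ 2 := ⟨by nlinarith, by nlinarith⟩
        obtain ⟨h5, h6⟩ := this
        interval_cases hc : c A <;> omega
    · omega
  obtain ⟨A, B, hAB, hSAB⟩ := Finset.card_eq_two.1 hcard
  have hA : A ∈ S := by rw [hSAB]; simp
  have hB : B ∈ S := by rw [hSAB]; simp
  have := hge A hA
  have := hge B hB
  rw [hSAB, Finset.sum_pair hAB] at hsum
  refine ⟨A, B, hAB, ?_, ?_, by omega, by omega, fun ψ hψ hA' hB' => ?_⟩
  · exact (Finset.mem_erase.1 (Finset.mem_filter.1 hA).1).1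
  · exact (Finset.mem_erase.1 (Finset.mem_filter.1 hB).1).1
  · by_contra hne
    have : ψ ∈ S := Finset.mem_filter.2 ⟨Finset.mem_erase.2 ⟨hψ, Finset.mem_univ _⟩, hne⟩
    rw [hSAB] at this
    simp [hA', hB'] at this

/-- Two vectors of norm three which are orthogonal share exactly one nontrivial constituent. -/
theorem shared_constituent [Fintype G] (c c' : IrrCharacter G → ℤ) (h1 : c (Char.trivialIrr G) = 1)
    (h1' : c' (Char.trivialIrr G) = 1) (h3 : ∑ ψ, c ψ * c ψ = 3) (h3' : ∑ ψ, c' ψ * c' ψ = 3)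
    (h0 : ∑ ψ, c ψ * c' ψ = 0) :
    ∃ A B B' : IrrCharacter G, A ≠ Char.trivialIrr G ∧ B ≠ Char.trivialIrr G ∧
      B' ≠ Char.trivialIrr G ∧ c A * c A = 1 ∧ c B * c B = 1 ∧ c' B' * c' B' = 1 ∧ c' A = - c A ∧
      (∀ f : IrrCharacter G → ℂ, ∑ ψ, (c ψ : ℂ) * f ψ = f (Char.trivialIrr G) + c A * f A + c B * f B) ∧
      ∀ f : IrrCharacter G → ℂ, ∑ ψ, (c' ψ : ℂ) * f ψ = f (Char.trivialIrr G) + c' A * f A + c' B' * f B' := by
  classical
  obtain ⟨A, B, hAB, hA1, hB1, hcA, hcB, hz⟩ := two_constituents c h1 h3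
  obtain ⟨A', B', hAB', hA1', hB1', hcA', hcB', hz'⟩ := two_constituents c' h1' h3'
  have expand : ∀ {c : IrrCharacter G → ℤ} {A B : IrrCharacter G}, c (Char.trivialIrr G) = 1 →
      A ≠ B → A ≠ Char.trivialIrr G → B ≠ Char.trivialIrr G →
      (∀ ψ, ψ ≠ Char.trivialIrr G → ψ ≠ A → ψ ≠ B → c ψ = 0) → ∀ f : IrrCharacter G → ℂ,
      ∑ ψ, (c ψ : ℂ) * f ψ = f (Char.trivialIrr G) + c A * f A + c B * f B := by
    intro c A B h1 hAB hA1 hB1 hz f
    rw [← Finset.sum_subset (Finset.subset_univ {Char.trivialIrr G, A, B})]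
    · rw [Finset.sum_insert (by simp [hA1.symm, hB1.symm]), Finset.sum_pair hAB, h1, ← add_assoc]
      simp
    · intro ψ _ hψ
      simp only [Finset.mem_insert, Finset.mem_singleton, not_or] at hψ
      rw [hz ψ hψ.1 hψ.2.1 hψ.2.2]; simp
  have hsum : c' A * c A + c' B * c B = -1 := by
    have := expand h1 hAB hA1 hB1 hz (fun ψ => (c' ψ : ℂ))
    rw [show ∑ ψ, (c ψ : ℂ) * (c' ψ : ℂ) = ((∑ ψ, c ψ * c' ψ : ℤ) : ℂ) by push_cast; rfl, h0, h1'] at this
    have e : (((c A * c' A + c B * c' B : ℤ)) : ℂ) = ((-1 : ℤ) : ℂ) := by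
      push_cast at this ⊢
      linear_combination -this
    have := Int.cast_injective e
    linarith
  have hc : c A = 1 ∨ c A = -1 := mul_self_eq_one_iff.1 hcA
  have hd : c B = 1 ∨ c B = -1 := mul_self_eq_one_iff.1 hcB
  have hsq : ∀ ψ, ψ ≠ Char.trivialIrr G → c' ψ = 0 ∨ c' ψ = 1 ∨ c' ψ = -1 := by
    intro ψ hψ
    by_cases e1 : ψ = A'
    · exact Or.inr (e1 ▸ mul_self_eq_one_iff.1 hcA')
    by_cases e2 : ψ = B'
    · exact Or.inr (e2 ▸ mul_self_eq_one_iff.1 hcB')
    exact Or.inl (hz' ψ hψ e1 e2)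
  have hxA := hsq A hA1
  have hxB := hsq B hB1
  obtain ⟨X, Y, hXY, hX1, hY1, hcX, hcY, hXz, hneg⟩ : ∃ X Y, X ≠ Y ∧ X ≠ Char.trivialIrr G ∧
      Y ≠ Char.trivialIrr G ∧ c X * c X = 1 ∧ c Y * c Y = 1 ∧
      (∀ ψ, ψ ≠ Char.trivialIrr G → ψ ≠ X → ψ ≠ Y → c ψ = 0) ∧ c' X = - c X := by
    by_cases e : c' A = - c A
    · exact ⟨A, B, hAB, hA1, hB1, hcA, hcB, hz, e⟩
    · refine ⟨B, A, hAB.symm, hB1, hA1, hcB, hcA, fun ψ a b d => hz ψ a d b, ?_⟩
      rcases hc with a | a <;> rcases hd with b | b <;> rcases hxA with x | x | x <;>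
        rcases hxB with y | y | y <;> simp [a, b, x, y] at hsum e ⊢
  obtain ⟨Z, hZ1, hXZ, hcZ, hXz'⟩ : ∃ Z, Z ≠ Char.trivialIrr G ∧ X ≠ Z ∧ c' Z * c' Z = 1 ∧
      ∀ ψ, ψ ≠ Char.trivialIrr G → ψ ≠ X → ψ ≠ Z → c' ψ = 0 := by
    have hne : c' X ≠ 0 := fun e => by
      rw [e, eq_comm, neg_eq_zero] at hneg
      rw [hneg, mul_zero] at hcX
      exact zero_ne_one hcX
    have hXA' : X = A' ∨ X = B' := by
      by_contra h
      push Not at h
      exact hne (hz' X hX1 h.1 h.2)
    rcases hXA' with rfl | rfl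
    · exact ⟨B', hB1', hAB', hcB', hz'⟩
    · exact ⟨A', hA1', hAB'.symm, hcA', fun ψ a b d => hz' ψ a d b⟩
  exact ⟨X, Y, Z, hX1, hY1, hZ1, hcX, hcY, hcZ, hneg, expand h1 hXY hX1 hY1 hXz,
    expand h1' hXZ hX1 hZ1 hXz'⟩

theorem degree_abs_ge_two [Fintype G] [IsSimpleGroup G] (hna : ¬ IsMulCommutative G)
    {ψ : IrrCharacter G} (hψ : ψ ≠ Char.trivialIrr G) {d : ℤ} (hd : (ψ : G → ℂ) 1 = d) : 2 ≤ d := by
  obtain ⟨n, hn⟩ := Char.isCharacter_one_nat (Char.isCharacter_of_irr ψ.2)
  have h0 : n ≠ 0 := fun e => Char.irr_one_ne_zero ψ.2 (by rw [hn, e, Nat.cast_zero])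
  have h1 : n ≠ 1 := fun e => hψ (SpecFive.eq_trivial_of_degree_one hna (by rw [hn, e, Nat.cast_one]))
  have : d = n := Int.cast_injective (α := ℂ) (by rw [← hd, hn]; simp)
  omega

/-- The equations satisfied by the degree `|F|` and the value `|y|` of the shared constituent. -/
theorem exists_degree [Fintype G] [IsSimpleGroup G] (hna : ¬ IsMulCommutative G)
    {t : G} (ht : orderOf t = 2)
    (hconj : ∀ x y : G, orderOf x = 2 → orderOf y = 2 → IsConj x y)
    {H M : Subgroup G} {lam : H →* ℂˣ} {u w : G} (k : Key H M lam u w)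
    {H' M' : Subgroup G} {lam' : H' →* ℂˣ} {u' w' : G} (k' : Key H' M' lam' u' w')
    (hne : ∀ h ∈ H', u' ∈ zpowers h → ∀ g, g * u * g⁻¹ ∉ zpowers h) :
    ∃ F y : ℤ, 3 ≤ |F| ∧ |y| < |F| ∧ 2 ∣ F - y ∧
      ((Nat.card G : ℤ) * Nat.card H) * (F - y) ^ 2 =
        (Nat.card (centralizer ({t} : Set G)) : ℤ) ^ 2 * (Nat.card (Invs H M) : ℤ) ^ 2 * (F * (F + 1)) ∧
      ((Nat.card G : ℤ) * Nat.card H') * (F - y) ^ 2 =
        (Nat.card (centralizer ({t} : Set G)) : ℤ) ^ 2 * (Nat.card (Invs H' M') : ℤ) ^ 2 * (F * (F - 1)) := by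
  classical
  haveI := Fintype.ofFinite H
  haveI := Fintype.ofFinite H'
  choose c hc using coef_int H lam
  choose c' hc' using coef_int H' lam'
  have ci : ∀ {x y : ℤ}, (x : ℂ) = y → x = y := fun h => Int.cast_injective h
  have h1 : c (Char.trivialIrr G) = 1 := ci (by rw [← hc, coef_trivial H lam k.lam_ne]; simp)
  have h1' : c' (Char.trivialIrr G) = 1 := ci (by rw [← hc', coef_trivial H' lam' k'.lam_ne]; simp)
  have h3 : ∑ ψ, c ψ * c ψ = 3 := ci (by push_cast; simp only [← hc]; exact k.sum_sq)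
  have h3' : ∑ ψ, c' ψ * c' ψ = 3 := ci (by push_cast; simp only [← hc']; exact k'.sum_sq)
  have h0 : ∑ ψ, c ψ * c' ψ = 0 := ci (by push_cast; simp only [← hc, ← hc']; exact sum_cross k k' hne)
  obtain ⟨A, B, B', hA, hB, hB', hcA, hcB, hcB', hAA, hex, hex'⟩ :=
    shared_constituent c c' h1 h1' h3 h3' h0
  obtain ⟨a1, at', ha1, hat, hpar⟩ := exists_int_involution A ht
  obtain ⟨b1, bt, hb1, hbt, -⟩ := exists_int_involution B ht
  obtain ⟨b1', bt', hb1', hbt', -⟩ := exists_int_involution B' ht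
  have g1 := degree_abs_ge_two hna hA ha1
  have g2 := degree_abs_ge_two hna hB hb1
  have g3 := degree_abs_ge_two hna hB' hb1'
  have ht1 : t ≠ 1 := fun e => by rw [e, orderOf_one] at ht; norm_num at ht
  have hsmall : ∀ {u : G}, 3 ≤ orderOf u → ∀ g, g * u * g⁻¹ ∉ zpowers t := fun {u} hu g hg => by
    have := Subgroup.orderOf_mk _ hg ▸ orderOf_dvd_natCard (⟨g * u * g⁻¹, hg⟩ : zpowers t)
    rw [Nat.card_zpowers, ht, ← MulAut.conj_apply, MulEquiv.orderOf_eq] at this
    have := Nat.le_of_dvd two_pos this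
    omega
  have hone : ∀ {u : G}, 3 ≤ orderOf u → ∀ g, g * u * g⁻¹ ∉ zpowers (1 : G) := fun {u} hu g hg => by
    simp only [zpowers_one_eq_bot, mem_bot, conj_eq_one_iff] at hg
    rw [hg, orderOf_one] at hu
    omega
  have htriv : ∀ x : G, ((Char.trivialIrr G : IrrCharacter G) : G → ℂ) x = 1 := fun x => rfl
  have e1 := hex (fun ψ => (ψ : G → ℂ) 1)
  have e2 := hex (fun ψ => (ψ : G → ℂ) t)
  have e3 := hex (fun ψ => (ψ : G → ℂ) t ^ 2 / (ψ : G → ℂ) 1)
  have f1 := hex' (fun ψ => (ψ : G → ℂ) 1)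
  have f2 := hex' (fun ψ => (ψ : G → ℂ) t)
  have f3 := hex' (fun ψ => (ψ : G → ℂ) t ^ 2 / (ψ : G → ℂ) 1)
  simp only [← hc, ← hc', htriv, ha1, hat, hb1, hbt, hb1', hbt', k.sum_mul_eq_zero (hone k.three),
    k.sum_mul_eq_zero (hsmall k.three), k'.sum_mul_eq_zero (hone k'.three),
    k'.sum_mul_eq_zero (hsmall k'.three)] at e1 e2 f1 f2
  simp only [← hc, ← mul_div_assoc] at e3
  simp only [← hc', ← mul_div_assoc] at f3
  rw [k.sum_pairs ht hconj] at e3
  rw [k'.sum_pairs ht hconj] at f3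
  simp only [hc, hc', htriv, ha1, hat, hb1, hbt, hb1', hbt', hAA] at e1 e2 e3 f1 f2 f3
  push_cast at f1 f2 f3
  have hy : |at'| < a1 := by
    obtain ⟨n, hn⟩ := Char.isCharacter_one_nat (Char.isCharacter_of_irr A.2)
    have hne' := SpecFive.norm_ne_degree hna hA ht1
    have hle : ‖(A : G → ℂ) t‖ ≤ ((A : G → ℂ) 1).re := Char.isCharacter_norm_le (Char.isCharacter_of_irr A.2) t
    rw [hat, ha1] at hne' hle
    simp only [Complex.intCast_re, Complex.norm_intCast] at hne' hle
    have := lt_of_le_of_ne hle hne'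
    exact_mod_cast this
  refine ⟨c A * a1, c A * at', ?_, ?_, ?_, ?_, ?_⟩
  rotate_left
  · rw [abs_mul, abs_mul]
    rcases mul_self_eq_one_iff.1 hcA with e | e <;> simp [e, abs_of_nonneg (show (0 : ℤ) ≤ a1 by omega), hy]
  · rw [← mul_sub]; exact dvd_mul_of_dvd_right hpar _
  all_goals
    have hcA' : (c A : ℂ) * c A = 1 := by exact_mod_cast hcA
    have hG0 : (Nat.card G : ℂ) ≠ 0 := Char.card_ne_zero_complex
    have ha0 : (a1 : ℂ) ≠ 0 := by simp; omega
  · have hb0 : (b1 : ℂ) ≠ 0 := by simp; omega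
    have hcB' : (c B : ℂ) * c B = 1 := by exact_mod_cast hcB
    have hH0 : (Nat.card H : ℂ) ≠ 0 := Char.card_ne_zero_complex
    field_simp at e3
    apply ci
    push_cast
    rcases mul_self_eq_one_iff.1 hcA' with e | e <;> rcases mul_self_eq_one_iff.1 hcB' with e' | e' <;>
      simp only [e, e'] at e1 e2 e3 ⊢
    all_goals
      first
        | (rw [show (b1 : ℂ) = -1 - a1 by linear_combination -e1,
            show (bt : ℂ) = -1 - at' by linear_combination -e2] at e3
           first | linear_combination e3 | linear_combination -e3)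
        | (rw [show (b1 : ℂ) = 1 + a1 by linear_combination e1,
            show (bt : ℂ) = 1 + at' by linear_combination e2] at e3
           first | linear_combination e3 | linear_combination -e3)
        | (rw [show (b1 : ℂ) = -1 + a1 by linear_combination -e1,
            show (bt : ℂ) = -1 + at' by linear_combination -e2] at e3
           first | linear_combination e3 | linear_combination -e3)
        | (rw [show (b1 : ℂ) = 1 - a1 by linear_combination e1,
            show (bt : ℂ) = 1 - at' by linear_combination e2] at e3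
           first | linear_combination e3 | linear_combination -e3)
  · have hb0 : (b1' : ℂ) ≠ 0 := by simp; omega
    have hcB2 : (c' B' : ℂ) * c' B' = 1 := by exact_mod_cast hcB'
    have hH0 : (Nat.card H' : ℂ) ≠ 0 := Char.card_ne_zero_complex
    field_simp at f3
    apply ci
    push_cast
    rcases mul_self_eq_one_iff.1 hcA' with e | e <;> rcases mul_self_eq_one_iff.1 hcB2 with e' | e' <;>
      simp only [e, e'] at f1 f2 f3 ⊢
    all_goals
      first
        | (rw [show (b1' : ℂ) = -1 - a1 by linear_combination -f1,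
            show (bt' : ℂ) = -1 - at' by linear_combination -f2] at f3
           first | linear_combination f3 | linear_combination -f3)
        | (rw [show (b1' : ℂ) = 1 + a1 by linear_combination f1,
            show (bt' : ℂ) = 1 + at' by linear_combination f2] at f3
           first | linear_combination f3 | linear_combination -f3)
        | (rw [show (b1' : ℂ) = -1 + a1 by linear_combination -f1,
            show (bt' : ℂ) = -1 + at' by linear_combination -f2] at f3
           first | linear_combination f3 | linear_combination -f3)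
        | (rw [show (b1' : ℂ) = 1 - a1 by linear_combination f1,
            show (bt' : ℂ) = 1 - at' by linear_combination f2] at f3
           first | linear_combination f3 | linear_combination -f3)
  · have e1' : c B * b1 = -1 - c A * a1 := ci (by push_cast; linear_combination -e1)
    have f1' : c' B' * b1' = -1 + c A * a1 := ci (by push_cast; linear_combination -f1)
    rcases mul_self_eq_one_iff.1 hcA with e | e <;> rcases mul_self_eq_one_iff.1 hcB with e' | e' <;>
      rcases mul_self_eq_one_iff.1 hcB' with e'' | e'' <;>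
      simp [e, e', e''] at e1' f1' ⊢ <;> rw [abs_of_nonneg] <;> omega

end Cfsg.Agent.GW.SD
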