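import Cfsg.Agent.GW.Engine
import Cfsg.Agent.Lib.FrobeniusComplement
import Cfsg.Agent.SpecFive.Characters

/-!
Exceptional generalized characters of norm three.

A subgroup `H` of index two in `M`, with a linear character inverted by an involution of `M \ H`
and non-trivial only on elements whose powers contain a fixed element `u` with `N(⟨u⟩) ≤ M`.
-/

set_option autoImplicit false
set_option linter.unusedSectionVars false
set_option linter.style.haveILetI false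

open scoped ComplexConjugate
open Cfsg

namespace Cfsg.Agent.GW.SD

open Subgroup

universe u

variable {G : Type u} [Group G] [Finite G]

/-- The configuration. -/
structure Key (H M : Subgroup G) (lam : H →* ℂˣ) (u w : G) : Prop where
  le : H ≤ M
  norm : ∀ g ∈ M, ∀ h ∈ H, g * h * g⁻¹ ∈ H
  u_mem : u ∈ H
  centr : ∀ h ∈ H, h * u = u * h
  w_mem : w ∈ M
  w_out : w ∉ H
  ww : w * w = 1
  two : ∀ g ∈ M, g ∉ H → g * w ∈ H
  inv : ∀ (h : H) (hh : w * (h : G) * w⁻¹ ∈ H), lam ⟨w * (h : G) * w⁻¹, hh⟩ = (lam h)⁻¹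
  nsq : ∃ h, lam h * lam h ≠ 1
  detect : ∀ h : H, lam h ≠ 1 → u ∈ zpowers (h : G)
  ti : ∀ g, g * u * g⁻¹ ∈ zpowers u → g ∈ M
  three : 3 ≤ orderOf u

/-- The involutions of `M` outside `H`. -/
abbrev Invs (H M : Subgroup G) : Type u := {s : G // s ∈ M ∧ s ∉ H ∧ s * s = 1}

/-- Two elements of equal order in a cyclic subgroup generate the same subgroup. -/
theorem mem_zpowers_of_order_eq {x a b : G} (ha : a ∈ zpowers x) (hb : b ∈ zpowers x)
    (h : orderOf a = orderOf b) : a ∈ zpowers b := by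
  have e : zpowers (⟨a, ha⟩ : zpowers x) = zpowers ⟨b, hb⟩ :=
    FrobeniusCompl.eq_of_card_eq (by rw [Nat.card_zpowers, Nat.card_zpowers, orderOf_mk, orderOf_mk, h])
  obtain ⟨i, hi⟩ := e ▸ mem_zpowers (⟨a, ha⟩ : zpowers x)
  exact ⟨i, congrArg Subtype.val hi⟩

namespace Key

variable {H M : Subgroup G} {lam : H →* ℂˣ} {u w : G} (k : Key H M lam u w)
include k

theorem u_sq_ne : u * u ≠ 1 := fun e => by
  have h1 := orderOf_le_of_pow_eq_one (x := u) two_pos (by rw [pow_two, e])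
  have := k.three
  omega

theorem lam_ne : lam ≠ 1 := by
  obtain ⟨h, hh⟩ := k.nsq
  intro e
  exact hh (by rw [e]; simp)

theorem mul_mem_H {s s' : G} (hs : s ∈ M) (hso : s ∉ H) (hs' : s' ∈ M) (hso' : s' ∉ H)
    (hs2 : s' * s' = 1) : s * s' ∈ H := by
  have h2 : s' * w ∈ H := k.two s' hs' hso'
  have h3 : w * s' ∈ H := by
    have := inv_mem h2
    rwa [mul_inv_rev, inv_eq_of_mul_eq_one_right k.ww, inv_eq_of_mul_eq_one_right hs2] at this
  have : s * s' = s * w * (w * s') := by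
    rw [mul_assoc, ← mul_assoc w w, k.ww, one_mul]
  rw [this]
  exact mul_mem (k.two s hs hso) h3

theorem conj_eq_of_mem {g : G} (hg : g ∈ M) (hgo : g ∉ H) :
    ∃ h0 ∈ H, g = h0 * w := ⟨g * w, k.two g hg hgo, by rw [mul_assoc, k.ww, mul_one]⟩

theorem w_conj {h : G} (hh : h ∈ H) : w * h * w⁻¹ ∈ H := k.norm w k.w_mem h hh

theorem lam_conj {g : G} (hg : g ∈ M) (hgo : g ∉ H) (h : H) (hh : g * (h : G) * g⁻¹ ∈ H) :
    lam ⟨g * (h : G) * g⁻¹, hh⟩ = (lam h)⁻¹ := by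
  obtain ⟨h0, hh0, rfl⟩ := k.conj_eq_of_mem hg hgo
  have : (⟨h0 * w * (h : G) * (h0 * w)⁻¹, hh⟩ : H) =
      ⟨h0, hh0⟩ * ⟨w * (h : G) * w⁻¹, k.w_conj h.2⟩ * ⟨h0, hh0⟩⁻¹ := Subtype.ext (by simp [mul_assoc])
  rw [this, map_mul, map_mul, map_inv, k.inv, mul_comm (lam _) (lam h)⁻¹, mul_inv_cancel_right]

theorem card_M : Nat.card M = 2 * Nat.card H := by
  have hH := card_subgroup_dvd_card H
  rw [← Nat.card_congr (subgroupOfEquivOfLe k.le).toEquiv,
    ← (H.subgroupOf M).index_mul_card]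
  congr 1
  refine index_eq_two_iff.2 ⟨⟨w, k.w_mem⟩, fun g => ?_⟩
  simp only [mem_subgroupOf, coe_mul]
  by_cases hg : (g : G) ∈ H
  · refine Or.inr ⟨hg, fun h => k.w_out ?_⟩
    simpa using mul_mem (inv_mem hg) h
  · exact Or.inl ⟨k.two g g.2 hg, hg⟩

theorem tiM (g : G) (h : H) (hg : g * (h : G) * g⁻¹ ∈ H) (h1 : lam h ≠ 1)
    (h2 : lam ⟨g * (h : G) * g⁻¹, hg⟩ ≠ 1) : g ∈ M := by
  refine k.ti g ?_
  obtain ⟨i, hi⟩ := k.detect h h1
  simp only at hi
  refine mem_zpowers_of_order_eq (x := g * (h : G) * g⁻¹) ⟨i, ?_⟩ (k.detect _ h2) ?_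
  · simp only [conj_zpow, hi]
  · rw [← MulAut.conj_apply, MulEquiv.orderOf_eq]

theorem sum_sq [Fintype G] [Fintype H] :
    ∑ ψ : IrrCharacter G, coef H lam ψ * coef H lam ψ = 3 := by
  rw [sum_coef_sq H lam k.lam_ne M k.le k.norm k.tiM fun g hg hgo => ?_, k.card_M]
  · push_cast
    rw [mul_div_assoc, div_self Char.card_ne_zero_complex]
    norm_num
  · obtain ⟨h, hh⟩ := k.nsq
    refine ⟨h, fun e => hh ?_⟩
    rw [k.lam_conj hg hgo] at e
    nth_rw 1 [← e]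
    exact inv_mul_cancel _

theorem sum_mul_eq_zero [Fintype G] [Fintype H] {x : G} (hx : ∀ g, g * u * g⁻¹ ∉ zpowers x) :
    ∑ ψ : IrrCharacter G, coef H lam ψ * (ψ : G → ℂ) x = 0 := by
  refine sum_coef_mul_eq_zero H lam x fun h hh => ?_
  by_contra h1
  obtain ⟨g, rfl⟩ := isConj_iff.1 hh
  obtain ⟨i, hi⟩ := k.detect h h1
  refine hx g ⟨i, ?_⟩
  simp only at hi ⊢
  rw [conj_zpow, hi]

theorem sum_lam_right [Fintype G] {wv : G} (hw : wv ∈ M) (hwo : wv ∉ H) (hww : wv * wv = 1)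
    [Fintype (Invs H M)] :
    ∑ s : Invs H M, (lam ⟨wv * s.1, k.mul_mem_H hw hwo s.2.1 s.2.2.1 s.2.2.2⟩ : ℂ) = 0 := by
  obtain ⟨h, hh⟩ := k.nsq
  set f : Invs H M → ℂ :=
    fun s => (lam ⟨wv * s.1, k.mul_mem_H hw hwo s.2.1 s.2.2.1 s.2.2.2⟩ : ℂ) with hf
  have hmem : ∀ (a : G), a ∈ H → ∀ s : Invs H M,
      a * s.1 * a⁻¹ ∈ M ∧ a * s.1 * a⁻¹ ∉ H ∧ a * s.1 * a⁻¹ * (a * s.1 * a⁻¹) = 1 := fun a ha s => by
    refine ⟨mul_mem (mul_mem (k.le ha) s.2.1) (inv_mem (k.le ha)), fun hc => s.2.2.1 ?_, ?_⟩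
    · simpa [mul_assoc] using mul_mem (mul_mem (inv_mem ha) hc) ha
    · rw [conj_mul, s.2.2.2]; group
  let e : Invs H M ≃ Invs H M :=
    { toFun := fun s => ⟨(h : G) * s.1 * (h : G)⁻¹, hmem h h.2 s⟩
      invFun := fun s => ⟨(h : G)⁻¹ * s.1 * ((h : G)⁻¹)⁻¹, hmem _ (inv_mem h.2) s⟩
      left_inv := fun s => Subtype.ext (by simp [mul_assoc])
      right_inv := fun s => Subtype.ext (by simp [mul_assoc]) }
  have key : ∀ s, f (e s) = ((lam h)⁻¹ * (lam h)⁻¹ : ℂˣ) * f s := fun s => by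
    have hx : wv * (h : G) * wv⁻¹ ∈ H := k.norm wv hw h h.2
    have hwi : wv⁻¹ = wv := inv_eq_of_mul_eq_one_right hww
    have : (⟨wv * (e s).1, k.mul_mem_H hw hwo (e s).2.1 (e s).2.2.1 (e s).2.2.2⟩ : H) =
        ⟨wv * (h : G) * wv⁻¹, hx⟩ * ⟨wv * s.1, k.mul_mem_H hw hwo s.2.1 s.2.2.1 s.2.2.2⟩ * h⁻¹ :=
      Subtype.ext (by
        simp only [e, Equiv.coe_fn_mk, coe_mul, coe_inv, hwi]
        rw [mul_assoc (wv * (h : G)) wv, ← mul_assoc wv wv, hww, one_mul]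
        simp [mul_assoc])
    simp only [hf]
    rw [this, map_mul, map_mul, k.lam_conj hw hwo, map_inv]
    push_cast
    ring
  have h1 : ∑ s, f s = ((lam h)⁻¹ * (lam h)⁻¹ : ℂˣ) * ∑ s, f s := by
    rw [Finset.mul_sum, ← e.sum_comp f]
    exact Finset.sum_congr rfl fun s _ => key s
  by_contra hne
  have h2 : (((lam h)⁻¹ * (lam h)⁻¹ : ℂˣ) : ℂ) = 1 :=
    mul_right_cancel₀ hne (by rw [one_mul]; exact h1.symm)
  have h3 : (lam h)⁻¹ * (lam h)⁻¹ = 1 := Units.ext h2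
  rw [← mul_inv, inv_eq_one] at h3
  exact hh h3

theorem sum_pairs [Fintype G] [Fintype H] {t : G} (ht : orderOf t = 2)
    (hconj : ∀ x y : G, orderOf x = 2 → orderOf y = 2 → IsConj x y) :
    ∑ ψ : IrrCharacter G, coef H lam ψ * (ψ : G → ℂ) t ^ 2 / (ψ : G → ℂ) 1
      = (Nat.card (centralizer ({t} : Set G)) : ℂ) ^ 2 * (Nat.card (Invs H M) : ℂ) ^ 2 /
          ((Nat.card G : ℂ) * Nat.card H) := by
  classical
  haveI := Fintype.ofFinite (Invs H M)
  rw [sum_coef_pairs, div_mul_eq_mul_div, mul_comm]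
  have hinvol : ∀ s : Invs H M, IsConj t s.1 := fun s => hconj t s.1 ht
    (orderOf_eq_prime (by rw [pow_two, s.2.2.2]) fun e => s.2.2.1 (by rw [e]; exact one_mem H))
  let μ : Invs H M × Invs H M → H :=
    fun p => ⟨p.1.1 * p.2.1, k.mul_mem_H p.1.2.1 p.1.2.2.1 p.2.2.1 p.2.2.2.1 p.2.2.2.2⟩
  have hfib : ∀ h : H, (1 - (lam h : ℂ)) *
      (Nat.card {st : G × G // IsConj t st.1 ∧ IsConj t st.2 ∧ st.1 * st.2 = (h : G)} : ℂ) =
      ∑ p ∈ Finset.univ.filter (fun p => μ p = h), (1 - (lam (μ p) : ℂ)) := by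
    intro h
    rw [Finset.sum_congr rfl (fun p hp => by rw [(Finset.mem_filter.1 hp).2]), Finset.sum_const,
      nsmul_eq_mul, mul_comm]
    by_cases h1 : lam h = 1
    · simp [h1]
    congr 2
    rw [← Fintype.card_subtype, ← Nat.card_eq_fintype_card]
    have htt : ∀ a : G, IsConj t a → a * a = 1 := fun a ha => by
      obtain ⟨c, rfl⟩ := isConj_iff.1 ha
      rw [conj_mul, ← pow_two, ← ht, pow_orderOf_eq_one]; group
    have hin : ∀ a b : G, a * a = 1 → b * b = 1 → a * b = h → a ∈ M ∧ a ∉ H := fun a b ha hb hab => by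
      have hai : a⁻¹ = a := inv_eq_of_mul_eq_one_right ha
      have hinv : a * (h : G) * a⁻¹ = (h : G)⁻¹ := by
        rw [← hab, mul_inv_rev, inv_eq_of_mul_eq_one_right hb, hai, ← mul_assoc, ha, one_mul]
      obtain ⟨i, hi⟩ := k.detect h h1
      simp only at hi
      have hu : a * u * a⁻¹ = u⁻¹ := by rw [← hi, ← conj_zpow, hinv, inv_zpow]
      refine ⟨k.ti a (by rw [hu]; exact inv_mem (mem_zpowers u)), fun haH => k.u_sq_ne ?_⟩
      rw [k.centr a haH, mul_inv_cancel_right] at hu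
      rw [mul_eq_one_iff_eq_inv]; exact hu
    refine Nat.card_congr
      { toFun := fun st => ⟨(⟨st.1.1, (hin _ _ (htt _ st.2.1) (htt _ st.2.2.1) st.2.2.2).1,
            (hin _ _ (htt _ st.2.1) (htt _ st.2.2.1) st.2.2.2).2, htt _ st.2.1⟩,
          ⟨st.1.2, ?_, ?_, htt _ st.2.2.1⟩), Subtype.ext st.2.2.2⟩
        invFun := fun p => ⟨(p.1.1.1, p.1.2.1), hinvol p.1.1, hinvol p.1.2,
          congrArg Subtype.val p.2⟩
        left_inv := fun st => rfl
        right_inv := fun p => rfl }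
    · have e := st.2.2.2
      rw [← eq_inv_mul_iff_mul_eq] at e
      rw [e]
      exact mul_mem (inv_mem (hin _ _ (htt _ st.2.1) (htt _ st.2.2.1) st.2.2.2).1) (k.le h.2)
    · intro hc
      refine (hin _ _ (htt _ st.2.1) (htt _ st.2.2.1) st.2.2.2).2 ?_
      have e := st.2.2.2
      rw [← eq_mul_inv_iff_mul_eq] at e
      rw [e]
      exact mul_mem h.2 (inv_mem hc)
  rw [Finset.sum_congr rfl (fun h _ => hfib h), Finset.sum_fiberwise, Finset.sum_sub_distrib,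
    Finset.sum_const, Finset.card_univ, Fintype.card_prod, nsmul_eq_mul, mul_one]
  have hzero : ∑ p : Invs H M × Invs H M, (lam (μ p) : ℂ) = 0 := by
    rw [Fintype.sum_prod_type]
    refine Finset.sum_eq_zero fun s _ => ?_
    exact k.sum_lam_right s.2.1 s.2.2.1 s.2.2.2
  rw [hzero, sub_zero, Nat.card_eq_fintype_card (α := Invs H M)]
  push_cast
  ring

end Key

/-- Two configurations without common detected elements are orthogonal. -/
theorem sum_cross [Fintype G] {H M : Subgroup G} {lam : H →* ℂˣ} {u w : G} (k : Key H M lam u w)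
    {H' M' : Subgroup G} {lam' : H' →* ℂˣ} {u' w' : G} (k' : Key H' M' lam' u' w')
    [Fintype H] [Fintype H']
    (hne : ∀ h ∈ H', u' ∈ zpowers h → ∀ g, g * u * g⁻¹ ∉ zpowers h) :
    ∑ ψ : IrrCharacter G, coef H lam ψ * coef H' lam' ψ = 0 := by
  have hreal : ∀ ψ, coef H lam ψ = conj (coef H lam ψ) := fun ψ => by
    obtain ⟨z, hz⟩ := coef_int H lam ψ
    rw [hz]; simp
  calc ∑ ψ : IrrCharacter G, coef H lam ψ * coef H' lam' ψ
      = ∑ ψ : IrrCharacter G, (Nat.card H' : ℂ)⁻¹ * ∑ h : H', (1 - (lam' h : ℂ)) *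
          conj (coef H lam ψ * (ψ : G → ℂ) h) := by
        refine Finset.sum_congr rfl fun ψ _ => ?_
        simp only [map_mul, ← hreal]
        simp only [coef, Finset.mul_sum]
        refine Finset.sum_congr rfl fun h _ => ?_
        ring
    _ = (Nat.card H' : ℂ)⁻¹ * ∑ h : H', (1 - (lam' h : ℂ)) *
          conj (∑ ψ : IrrCharacter G, coef H lam ψ * (ψ : G → ℂ) h) := by
        simp only [map_sum, Finset.mul_sum]
        exact Finset.sum_comm
    _ = 0 := by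
        rw [Finset.sum_eq_zero, mul_zero]
        intro h _
        by_cases h1 : lam' h = 1
        · simp [h1]
        · rw [k.sum_mul_eq_zero (hne h h.2 (k'.detect h h1)), map_zero, mul_zero]

end Cfsg.Agent.GW.SD
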