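import Cfsg.Agent.AutPSL.Small
import Cfsg.Agent.Linear.Transvection
import Cfsg.Agent.Linear.GLTwo

/-!
Tori of `SL₂(p)` as centralisers, and the fixed points of its involutory automorphisms.
-/

set_option autoImplicit false
set_option linter.unusedSectionVars false
set_option linter.style.haveILetI false

namespace Cfsg.Agent.GW.SD

open Matrix
open scoped MatrixGroups

variable {p : ℕ} [hp : Fact p.Prime]

local notation "Mat" => Matrix (Fin 2) (Fin 2) (ZMod p)

/-- Every automorphism of `SL₂(p)` is conjugation by a matrix. -/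
theorem exists_slConj (α : MulAut SL(2, ZMod p)) : ∃ g : GL (Fin 2) (ZMod p), α = AutPSL.slConj g := by
  classical
  obtain ⟨g, τ, hg⟩ := AutPSL.exists_decomp_two (AutPSL.pslAut α)
  have hτ : τ = RingEquiv.refl (ZMod p) :=
    RingEquiv.ext fun x => RingHom.congr_fun (Subsingleton.elim τ.toRingHom (RingHom.id _)) x
  subst hτ
  refine ⟨g, ?_⟩
  let γ : MulAut SL(2, ZMod p) := AutPSL.slConj g
  have hcen : ∀ m, γ m⁻¹ * α m ∈ Subgroup.center SL(2, ZMod p) := fun m => by
    have h := congrArg (fun β : MulAut _ => β (QuotientGroup.mk m)) hg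
    rw [map_inv]
    exact QuotientGroup.eq.mp (h.symm : (QuotientGroup.mk (γ m) :
      Matrix.ProjectiveSpecialLinearGroup (Fin 2) (ZMod p)) = QuotientGroup.mk (α m))
  let z : SL(2, ZMod p) →* Subgroup.center SL(2, ZMod p) :=
    MonoidHom.mk' (fun m => ⟨γ m⁻¹ * α m, hcen m⟩) fun a b => by
      apply Subtype.ext
      show γ (a * b)⁻¹ * α (a * b) = (γ a⁻¹ * α a) * (γ b⁻¹ * α b)
      rw [_root_.mul_inv_rev, map_mul, map_mul, mul_assoc, ← mul_assoc (γ a⁻¹),
        ← mul_assoc, Subgroup.mem_center_iff.mp (hcen a) (γ b⁻¹), mul_assoc]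
  have h1 : ∀ m, z m = 1 := by
    intro m
    induction m using Cfsg.Agent.Linear.transvection_induction with
    | hmul a b ha hb => rw [map_mul, ha, hb, one_mul]
    | htransvec i j hij c =>
      have hpow : ∀ (k : ℕ), SpecialLinearGroup.transvection hij c ^ k
          = SpecialLinearGroup.transvection hij (k * c) := by
        intro k
        induction k with
        | zero => simp [SpecialLinearGroup.transvection_coeff_zero]
        | succ k ih =>
          rw [pow_succ, ih, ← SpecialLinearGroup.transvection_add]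
          push_cast; ring_nf
      set y := z (SpecialLinearGroup.transvection hij c)
      have hyp : y ^ p = 1 := by
        rw [← map_pow, hpow, ZMod.natCast_self, zero_mul,
          SpecialLinearGroup.transvection_coeff_zero, map_one]
      obtain ⟨r, hr, hre⟩ := Matrix.SpecialLinearGroup.mem_center_iff.mp y.2
      rw [Fintype.card_fin] at hr
      have hrp : r ^ p = 1 := by
        have := congrArg (fun w : Subgroup.center SL(2, ZMod p) => (w.1.1) 0 0) hyp
        simp only [SubmonoidClass.coe_pow, Matrix.SpecialLinearGroup.coe_pow, ← hre,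
          scalar_apply, OneMemClass.coe_one, Matrix.SpecialLinearGroup.coe_one,
          Matrix.one_apply_eq, Matrix.diagonal_pow, Pi.pow_apply, Matrix.diagonal_apply_eq] at this
        exact this
      rw [ZMod.pow_card] at hrp
      apply Subtype.ext
      apply Subtype.ext
      rw [← hre, hrp, map_one]
      rfl
  refine MulEquiv.ext fun m => ?_
  have h2 : γ m⁻¹ * α m = 1 := congrArg Subtype.val (h1 m)
  rw [map_inv] at h2
  exact (inv_mul_eq_one.mp h2).symm

/-- The number of points of `s² - d t² = 1`. -/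
theorem card_conic (hp2 : p ≠ 2) {d : ZMod p} (hd : d ≠ 0) :
    Nat.card {x : ZMod p × ZMod p // x.1 * x.1 - d * (x.2 * x.2) = 1} = p - 1 ∨
      Nat.card {x : ZMod p × ZMod p // x.1 * x.1 - d * (x.2 * x.2) = 1} = p + 1 := by
  classical
  have h2 : (2 : ZMod p) ≠ 0 := by
    intro h
    have : (p : ℕ) ∣ 2 := (ZMod.natCast_eq_zero_iff 2 p).1 (by exact_mod_cast h)
    exact hp2 ((Nat.prime_dvd_prime_iff_eq hp.out Nat.prime_two).1 this)
  let e : Option {m : ZMod p // d * (m * m) ≠ 1} →
      {x : ZMod p × ZMod p // x.1 * x.1 - d * (x.2 * x.2) = 1} := fun o => o.elim ⟨(-1, 0), by ring⟩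
    fun m => ⟨((1 + d * (m.1 * m.1)) / (1 - d * (m.1 * m.1)), 2 * m.1 / (1 - d * (m.1 * m.1))), by
      have : 1 - d * (m.1 * m.1) ≠ 0 := sub_ne_zero.2 (Ne.symm m.2)
      simp only
      rw [div_mul_div_comm, div_mul_div_comm, mul_div, div_sub_div_same,
        div_eq_one_iff_eq (mul_ne_zero this this)]
      ring⟩
  have hinj : Function.Injective e := by
    have hne : ∀ m : {m : ZMod p // d * (m * m) ≠ 1}, e (some m) ≠ e none := by
      intro m h
      have h0 : 1 - d * (m.1 * m.1) ≠ 0 := sub_ne_zero.2 (Ne.symm m.2)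
      have := congrArg (fun x : {x : ZMod p × ZMod p // _} => x.1.1) h
      simp only [e, Option.elim] at this
      rw [div_eq_iff h0] at this
      exact h2 (by linear_combination this)
    rintro (_ | m) (_ | m') h
    · rfl
    · exact absurd h.symm (hne m')
    · exact absurd h (hne m)
    · have h0 : 1 - d * (m.1 * m.1) ≠ 0 := sub_ne_zero.2 (Ne.symm m.2)
      have h0' : 1 - d * (m'.1 * m'.1) ≠ 0 := sub_ne_zero.2 (Ne.symm m'.2)
      have a1 := congrArg (fun x : {x : ZMod p × ZMod p // _} => x.1.1) h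
      have a2 := congrArg (fun x : {x : ZMod p × ZMod p // _} => x.1.2) h
      simp only [e, Option.elim] at a1 a2
      rw [div_eq_div_iff h0 h0'] at a1 a2
      refine congrArg some (Subtype.ext ?_)
      have : d * (m.1 * m.1) = d * (m'.1 * m'.1) := mul_left_cancel₀ h2 (by linear_combination a1)
      rw [this] at a2
      exact mul_left_cancel₀ h2 (mul_right_cancel₀ h0' a2)
  have hsurj : Function.Surjective e := by
    rintro ⟨⟨s, t⟩, hst⟩
    simp only at hst
    by_cases hs : s = -1
    · subst hs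
      have : t = 0 := by
        have h : d * (t * t) = 0 := by linear_combination -hst
        simpa [hd] using h
      exact ⟨none, Subtype.ext (by simp [e, this])⟩
    have hs1 : s + 1 ≠ 0 := fun h => hs (by linear_combination h)
    set m := t / (s + 1) with hm
    have key : 1 - d * (m * m) = 2 / (s + 1) := by
      rw [hm]; field_simp; linear_combination hst
    have hm1 : d * (m * m) ≠ 1 := fun h => by
      rw [h, sub_self, eq_comm, div_eq_zero_iff] at key
      exact key.elim h2 hs1
    refine ⟨some ⟨m, hm1⟩, Subtype.ext (Prod.ext ?_ ?_)⟩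
    · show (1 + d * (m * m)) / (1 - d * (m * m)) = s
      rw [show 1 + d * (m * m) = 2 - (1 - d * (m * m)) by ring, key]
      field_simp
      ring
    · show 2 * m / (1 - d * (m * m)) = t
      rw [key, hm]
      field_simp
  rw [← Nat.card_congr (Equiv.ofBijective e ⟨hinj, hsurj⟩), Finite.card_option, Nat.card_eq_fintype_card,
    Fintype.card_subtype_compl, ZMod.card]
  by_cases hex : ∃ m : ZMod p, d * (m * m) = 1
  · obtain ⟨m, hm⟩ := hex
    have hm0 : m ≠ 0 := by rintro rfl; simp at hm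
    have : Fintype.card {x : ZMod p // d * (x * x) = 1} = 2 := by
      rw [Fintype.card_subtype, Finset.card_eq_two]
      refine ⟨m, -m, fun h => hm0 ?_, Finset.ext fun x => ?_⟩
      · exact (mul_eq_zero.1 (by linear_combination h : (2 : ZMod p) * m = 0)).resolve_left h2
      · simp only [Finset.mem_filter, Finset.mem_univ, true_and, Finset.mem_insert,
          Finset.mem_singleton]
        constructor
        · intro hx
          exact mul_self_eq_mul_self_iff.1 (mul_left_cancel₀ hd (hx.trans hm.symm))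
        · rintro (rfl | rfl)
          · exact hm
          · rw [neg_mul_neg]; exact hm
    left
    rw [this]
    have := hp.out.two_le
    omega
  · right
    push Not at hex
    rw [Fintype.card_eq_zero_iff.2 ⟨fun x => hex x.1 x.2⟩]
    omega

theorem coe_mul' (a b : SL(2, ZMod p)) : ((a * b : SL(2, ZMod p)) : Mat) = (a : Mat) * (b : Mat) :=
  rfl

theorem coe_inv' (a : SL(2, ZMod p)) :
    ((a⁻¹ : SL(2, ZMod p)) : Mat) = (a : Mat).adjugate := rfl

theorem coe_pow' (a : SL(2, ZMod p)) (k : ℕ) :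
    ((a ^ k : SL(2, ZMod p)) : Mat) = (a : Mat) ^ k := by
  induction k with
  | zero => rfl
  | succ k ih => rw [pow_succ, pow_succ, ← ih]; rfl

theorem coe_inv_mul (a : SL(2, ZMod p)) : ((a⁻¹ : SL(2, ZMod p)) : Mat) * (a : Mat) = 1 := by
  rw [← coe_mul', inv_mul_cancel]; rfl

theorem coe_mul_inv (a : SL(2, ZMod p)) : (a : Mat) * ((a⁻¹ : SL(2, ZMod p)) : Mat) = 1 := by
  rw [← coe_mul', mul_inv_cancel]; rfl

/-- The elements of `SL₂` commuting with a trace-zero matrix. -/
def centT (A : Mat) : Subgroup SL(2, ZMod p) where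
  carrier := {l | (l : Mat) * A = A * (l : Mat)}
  one_mem' := by simp
  mul_mem' {a b} ha hb := by
    show ((a * b : SL(2, ZMod p)) : Mat) * A = A * ((a * b : SL(2, ZMod p)) : Mat)
    have ha : (a : Mat) * A = A * (a : Mat) := ha
    have hb : (b : Mat) * A = A * (b : Mat) := hb
    rw [coe_mul', mul_assoc, hb, ← mul_assoc, ha, mul_assoc]
  inv_mem' {a} ha := by
    show ((a⁻¹ : SL(2, ZMod p)) : Mat) * A = A * ((a⁻¹ : SL(2, ZMod p)) : Mat)
    have ha : (a : Mat) * A = A * (a : Mat) := ha
    calc _ = ((a⁻¹ : SL(2, ZMod p)) : Mat) * (A * (a : Mat)) * ((a⁻¹ : SL(2, ZMod p)) : Mat) := by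
          rw [mul_assoc, mul_assoc, coe_mul_inv, mul_one]
      _ = ((a⁻¹ : SL(2, ZMod p)) : Mat) * ((a : Mat) * A) * ((a⁻¹ : SL(2, ZMod p)) : Mat) := by rw [ha]
      _ = _ := by rw [← mul_assoc, coe_inv_mul, one_mul]

theorem mem_centT {A : Matrix (Fin 2) (Fin 2) (ZMod p)} {l : SL(2, ZMod p)} :
    l ∈ centT A ↔ (l : Matrix (Fin 2) (Fin 2) (ZMod p)) * A = A * l := Iff.rfl

/-- A matrix commuting with a trace-zero non-scalar matrix is a combination of it and the identity. -/
theorem exists_coords {A X : Matrix (Fin 2) (Fin 2) (ZMod p)} (h2 : (2 : ZMod p) ≠ 0)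
    (htr : A 1 1 = - A 0 0) (hA : A ≠ 0) (hX : X * A = A * X) :
    ∃ s t : ZMod p, X = s • (1 : Matrix (Fin 2) (Fin 2) (ZMod p)) + t • A := by
  have e00 := congrFun (congrFun hX 0) 0
  have e01 := congrFun (congrFun hX 0) 1
  have e10 := congrFun (congrFun hX 1) 0
  simp [Matrix.mul_apply, Fin.sum_univ_two, htr] at e00 e01 e10
  by_cases hb : A 0 1 = 0
  · by_cases hc : A 1 0 = 0
    · have ha : A 0 0 ≠ 0 := fun ha => hA (by
        ext i j; fin_cases i <;> fin_cases j <;> simp [ha, hb, hc, htr])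
      simp [hb, hc] at e01 e10
      have h01 : X 0 1 = 0 := by
        have : (2 : ZMod p) * (A 0 0 * X 0 1) = 0 := by linear_combination -e01
        exact (mul_eq_zero.1 ((mul_eq_zero.1 this).resolve_left h2)).resolve_left ha
      have h10 : X 1 0 = 0 := by
        have : (2 : ZMod p) * (A 0 0 * X 1 0) = 0 := by linear_combination e10
        exact (mul_eq_zero.1 ((mul_eq_zero.1 this).resolve_left h2)).resolve_left ha
      refine ⟨(X 0 0 + X 1 1) / 2, (X 0 0 - X 1 1) / (2 * A 0 0), ?_⟩
      ext i j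
      fin_cases i <;> fin_cases j <;> simp [hb, hc, h01, h10, htr] <;> field_simp <;> ring
    · refine ⟨X 0 0 - X 1 0 / A 1 0 * A 0 0, X 1 0 / A 1 0, ?_⟩
      have h01 : X 0 1 = 0 := (mul_eq_zero.1
        (show X 0 1 * A 1 0 = 0 by rw [hb] at e00; linear_combination e00)).resolve_right hc
      ext i j
      fin_cases i <;> fin_cases j <;> simp [hb, h01, htr] <;> field_simp <;>
        linear_combination e10
  · refine ⟨X 0 0 - X 0 1 / A 0 1 * A 0 0, X 0 1 / A 0 1, ?_⟩
    ext i j
    fin_cases i <;> fin_cases j <;> simp [htr] <;> field_simp <;>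
      first | linear_combination e00 | linear_combination -e00 | linear_combination -e01

/-- The centraliser in `SL₂` of a trace-zero matrix with non-zero square. -/
theorem centT_spec (hp2 : p ≠ 2) {A : Matrix (Fin 2) (Fin 2) (ZMod p)} (htr : A 1 1 = - A 0 0)
    (hd : A 0 0 * A 0 0 + A 0 1 * A 1 0 ≠ 0) :
    (Nat.card (centT A) = p - 1 ∨ Nat.card (centT A) = p + 1) ∧
      (∀ x ∈ centT A, ∀ y ∈ centT A, x * y = y * x) ∧
      ∀ Q : SL(2, ZMod p), A * (Q : Mat) = -((Q : Mat) * A) → ∀ x ∈ centT A, Q * x * Q⁻¹ = x⁻¹ := by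
  classical
  have h2 : (2 : ZMod p) ≠ 0 := by
    intro h
    have : (p : ℕ) ∣ 2 := (ZMod.natCast_eq_zero_iff 2 p).1 (by exact_mod_cast h)
    exact hp2 ((Nat.prime_dvd_prime_iff_eq hp.out Nat.prime_two).1 this)
  set d := A 0 0 * A 0 0 + A 0 1 * A 1 0 with hd'
  have hA : A ≠ 0 := fun h => hd (by rw [hd', h]; simp)
  have hdet : ∀ s t : ZMod p,
      (s • (1 : Matrix (Fin 2) (Fin 2) (ZMod p)) + t • A).det = s * s - d * (t * t) := by
    intro s t; simp [Matrix.det_fin_two, htr, hd']; ring
  let f : {x : ZMod p × ZMod p // x.1 * x.1 - d * (x.2 * x.2) = 1} → centT A := fun x =>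
    ⟨⟨x.1.1 • 1 + x.1.2 • A, by rw [hdet]; exact x.2⟩, by
      show (x.1.1 • 1 + x.1.2 • A) * A = A * (x.1.1 • 1 + x.1.2 • A)
      simp [add_mul, mul_add]⟩
  have hf : Function.Bijective f := by
    refine ⟨fun x y h => ?_, fun l => ?_⟩
    · have h' : x.1.1 • (1 : Matrix (Fin 2) (Fin 2) (ZMod p)) + x.1.2 • A =
          y.1.1 • 1 + y.1.2 • A := congrArg (fun l : centT A => (l.1 : Mat)) h
      have e00 := congrFun (congrFun h' 0) 0
      have e01 := congrFun (congrFun h' 0) 1
      have e10 := congrFun (congrFun h' 1) 0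
      have e11 := congrFun (congrFun h' 1) 1
      simp [htr] at e00 e01 e10 e11
      have hs : x.1.1 = y.1.1 := mul_left_cancel₀ h2 (by linear_combination e00 + e11)
      have ht : x.1.2 = y.1.2 := by
        by_contra ht
        have ha : A 0 0 = 0 := (mul_eq_mul_left_iff.1
          (show A 0 0 * x.1.2 = A 0 0 * y.1.2 by linear_combination e00 - hs)).resolve_left ht
        have hb : A 0 1 = 0 := (mul_eq_mul_left_iff.1
          (show A 0 1 * x.1.2 = A 0 1 * y.1.2 by
            rcases e01 with e | e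
            · linear_combination A 0 1 * e
            · simp [e])).resolve_left ht
        exact hd (by rw [hd', ha, hb]; ring)
      exact Subtype.ext (Prod.ext hs ht)
    · obtain ⟨s, t, hst⟩ := exists_coords h2 htr hA l.2
      refine ⟨⟨(s, t), ?_⟩, Subtype.ext (Subtype.ext hst.symm)⟩
      rw [← hdet, ← hst]; exact l.1.det_coe
  refine ⟨?_, fun x hx y hy => ?_, fun Q hQ x hx => ?_⟩
  · rw [← Nat.card_congr (Equiv.ofBijective f hf)]
    exact card_conic hp2 hd
  · obtain ⟨s, t, hst⟩ := exists_coords h2 htr hA hx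
    refine Subtype.ext ?_
    rw [coe_mul', coe_mul', hst, add_mul, mul_add]
    simp [mem_centT.1 hy]
  · obtain ⟨s, t, hst⟩ := exists_coords h2 htr hA hx
    rw [mul_inv_eq_iff_eq_mul]
    refine Subtype.ext ?_
    have hinv : ((x⁻¹ : SL(2, ZMod p)) : Mat) = s • 1 - t • A := by
      rw [coe_inv', hst]
      ext i j
      fin_cases i <;> fin_cases j <;> simp [Matrix.adjugate_fin_two, htr, sub_eq_add_neg]
    rw [coe_mul', coe_mul', hinv, hst, mul_add, sub_mul]
    simp only [Matrix.mul_smul, Matrix.smul_mul, mul_one, one_mul]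
    rw [hQ, smul_neg, sub_neg_eq_add]

/-- The centraliser of a non-central element of order prime to `p`. -/
theorem centralizer_spec (hp2 : p ≠ 2) {l : SL(2, ZMod p)} (hl : l * l ≠ 1) (hcop : ¬ p ∣ orderOf l) :
    (Nat.card (Subgroup.centralizer ({l} : Set SL(2, ZMod p))) = p - 1 ∨
      Nat.card (Subgroup.centralizer ({l} : Set SL(2, ZMod p))) = p + 1) ∧
      ∀ x ∈ Subgroup.centralizer ({l} : Set SL(2, ZMod p)),
        ∀ y ∈ Subgroup.centralizer ({l} : Set SL(2, ZMod p)), x * y = y * x := by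
  have h2 : (2 : ZMod p) ≠ 0 := by
    intro h
    have : (p : ℕ) ∣ 2 := (ZMod.natCast_eq_zero_iff 2 p).1 (by exact_mod_cast h)
    exact hp2 ((Nat.prime_dvd_prime_iff_eq hp.out Nat.prime_two).1 this)
  have hdet := Linear.slTwo_det l
  set τ := (l 0 0 + l 1 1) / 2 with hτ
  set A : Matrix (Fin 2) (Fin 2) (ZMod p) := (l : Mat) - τ • 1 with hA
  have htr : A 1 1 = - A 0 0 := by simp [hA, hτ]; field_simp; ring
  have hd : A 0 0 * A 0 0 + A 0 1 * A 1 0 ≠ 0 := by
    intro hd
    simp [hA] at hd
    have hτ2 : τ * τ = 1 := by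
      have : l 0 0 + l 1 1 = 2 * τ := by rw [hτ]; field_simp
      linear_combination hd - (l 0 0 * 1) * this + hdet
    have hsum : l 0 0 + l 1 1 = 2 * τ := by rw [hτ]; field_simp
    have hnil : A * A = 0 := by
      ext i j
      fin_cases i <;> fin_cases j <;> simp [hA, Matrix.mul_apply, Fin.sum_univ_two] <;>
        first
          | linear_combination hd
          | linear_combination hd + (l 1 1 - l 0 0) * hsum
          | linear_combination (l 0 1) * hsum
          | linear_combination (l 1 0) * hsum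
    have hpow : ∀ k : ℕ, (l : Mat) ^ k = τ ^ k • 1 + (k * τ ^ (k - 1)) • A := by
      intro k
      induction k with
      | zero => simp
      | succ k ih =>
        rw [pow_succ, ih, show (l : Mat) = τ • 1 + A from by rw [hA]; abel]
        simp only [add_mul, mul_add, Matrix.smul_mul, one_mul, mul_one, hnil, smul_zero, add_zero,
          Matrix.mul_smul, smul_smul, pow_succ']
        rcases k with _ | k
        · simp
        · simp only [Nat.add_sub_cancel]
          rw [add_assoc, ← add_smul, mul_comm]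
          congr 2
          push_cast
          ring
    have h1 : l ^ (2 * p) = 1 := by
      refine Subtype.ext ?_
      rw [coe_pow', hpow]
      simp [pow_mul, pow_two, hτ2]
    have h4 : orderOf l ∣ 2 := (Nat.Coprime.dvd_of_dvd_mul_right
      ((Nat.Prime.coprime_iff_not_dvd hp.out).2 hcop).symm (orderOf_dvd_of_pow_eq_one h1))
    exact hl (by rw [← pow_two]; exact orderOf_dvd_iff_pow_eq_one.1 h4)
  have heq : Subgroup.centralizer ({l} : Set SL(2, ZMod p)) = centT A := by
    ext x
    rw [Subgroup.mem_centralizer_singleton_iff, mem_centT, hA, mul_sub, sub_mul]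
    simp only [Matrix.mul_smul, Matrix.smul_mul, mul_one, one_mul, sub_left_inj]
    exact ⟨fun h => congrArg Subtype.val h, fun h => Subtype.ext h⟩
  rw [heq]
  exact ⟨(centT_spec hp2 htr hd).1, (centT_spec hp2 htr hd).2.1⟩

/-- The fixed points of an involutory automorphism. -/
theorem fixed_spec (hp2 : p ≠ 2) (σ : MulAut SL(2, ZMod p)) (hσ : σ * σ = 1) (hσ1 : σ ≠ 1) :
    ∃ T : Subgroup SL(2, ZMod p), (∀ l, l ∈ T ↔ σ l = l) ∧
      (Nat.card T = p - 1 ∨ Nat.card T = p + 1) ∧ (∀ x ∈ T, ∀ y ∈ T, x * y = y * x) ∧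
      ∀ Q : SL(2, ZMod p), (Q : Mat) * (Q : Mat) = -1 → σ Q = Q⁻¹ → ∀ x ∈ T, Q * x * Q⁻¹ = x⁻¹ := by
  obtain ⟨g, rfl⟩ := exists_slConj σ
  have h2 : (2 : ZMod p) ≠ 0 := by
    intro h
    have : (p : ℕ) ∣ 2 := (ZMod.natCast_eq_zero_iff 2 p).1 (by exact_mod_cast h)
    exact hp2 ((Nat.prime_dvd_prime_iff_eq hp.out Nat.prime_two).1 this)
  set A : Matrix (Fin 2) (Fin 2) (ZMod p) := g.1 with hA
  have hfix : ∀ h : GL (Fin 2) (ZMod p), ∀ l : SL(2, ZMod p),
      AutPSL.slConj h l = l ↔ (l : Mat) * h.1 = h.1 * (l : Mat) := by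
    intro h l
    constructor
    · intro e
      have e : (h : Mat) * (l : Mat) * ((h⁻¹ : GL (Fin 2) (ZMod p)) : Mat) = (l : Mat) :=
        congrArg (fun m : SL(2, ZMod p) => (m : Mat)) e
      nth_rw 1 [← e]
      rw [mul_assoc, ← Units.val_mul, inv_mul_cancel, Units.val_one, mul_one]
    · intro e
      refine Subtype.ext ?_
      show (h : Mat) * (l : Mat) * ((h⁻¹ : GL (Fin 2) (ZMod p)) : Mat) = (l : Mat)
      rw [← e, mul_assoc, ← Units.val_mul, mul_inv_cancel, Units.val_one, mul_one]
  let T1 : SL(2, ZMod p) := ⟨!![1, 1; 0, 1], by simp [Matrix.det_fin_two]⟩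
  let T2 : SL(2, ZMod p) := ⟨!![1, 0; 1, 1], by simp [Matrix.det_fin_two]⟩
  have hscal : ∀ h : GL (Fin 2) (ZMod p), AutPSL.slConj h = 1 →
      h.1 0 1 = 0 ∧ h.1 1 0 = 0 ∧ h.1 0 0 = h.1 1 1 := by
    intro h he
    have a1 := (hfix h T1).1 (by rw [he]; rfl)
    have a2 := (hfix h T2).1 (by rw [he]; rfl)
    have b00 := congrFun (congrFun a1 0) 0
    have b01 := congrFun (congrFun a1 0) 1
    have c00 := congrFun (congrFun a2 0) 0
    simp [T1, T2, Matrix.mul_apply, Fin.sum_univ_two] at b00 b01 c00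
    exact ⟨c00, b00, by linear_combination -b01⟩
  have hsq := hscal (g * g) (by rw [map_mul]; exact hσ)
  simp [Matrix.mul_apply, Fin.sum_univ_two, ← hA] at hsq
  obtain ⟨s01, s10, -⟩ := hsq
  have htr : A 1 1 = - A 0 0 := by
    by_contra hne
    have ht : A 0 0 + A 1 1 ≠ 0 := fun h => hne (by linear_combination h)
    have h01 : A 0 1 = 0 := by
      have : A 0 1 * (A 0 0 + A 1 1) = 0 := by linear_combination s01
      exact (mul_eq_zero.1 this).resolve_right ht
    have h10 : A 1 0 = 0 := by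
      have : A 1 0 * (A 0 0 + A 1 1) = 0 := by linear_combination s10
      exact (mul_eq_zero.1 this).resolve_right ht
    have hgg := (hscal (g * g) (by rw [map_mul]; exact hσ)).2.2
    simp [Matrix.mul_apply, Fin.sum_univ_two, ← hA, h01, h10] at hgg
    rcases mul_self_eq_mul_self_iff.1 hgg with e | e
    · refine hσ1 (MulEquiv.ext fun l => (hfix g l).2 ?_)
      have : A = A 0 0 • 1 := by
        ext i j; fin_cases i <;> fin_cases j <;> simp [h01, h10, ← e]
      rw [← hA, this]; simp
    · exact hne (by linear_combination e)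
  have hdet := Matrix.GeneralLinearGroup.det_ne_zero g
  rw [← hA, Matrix.det_fin_two, htr] at hdet
  have hd : A 0 0 * A 0 0 + A 0 1 * A 1 0 ≠ 0 := fun h => hdet (by linear_combination -h)
  obtain ⟨hc, hab, hinv⟩ := centT_spec hp2 htr hd
  refine ⟨centT A, fun l => (hfix g l).symm, hc, hab, fun Q hQ hσQ x hx => hinv Q ?_ x hx⟩
  have h3 := congrArg Subtype.val hσQ
  rw [AutPSL.slConj_coe, ← hA] at h3
  have h4 : ((Q⁻¹ : SL(2, ZMod p)) : Mat) = -(Q : Mat) := by
    calc ((Q⁻¹ : SL(2, ZMod p)) : Mat) = ((Q⁻¹ : SL(2, ZMod p)) : Mat) * (-((Q : Mat) * (Q : Mat))) := by rw [hQ, neg_neg, mul_one]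
      _ = -(((Q⁻¹ : SL(2, ZMod p)) : Mat) * (Q : Mat) * (Q : Mat)) := by rw [mul_neg, mul_assoc]
      _ = -(Q : Mat) := by rw [coe_inv_mul]; simp
  rw [h4] at h3
  calc A * (Q : Mat) = A * (Q : Mat) * (((g⁻¹ : GL (Fin 2) (ZMod p)) : Mat) * A) := by
        rw [hA, ← Units.val_mul, inv_mul_cancel, Units.val_one, mul_one]
    _ = (A * (Q : Mat) * ((g⁻¹ : GL (Fin 2) (ZMod p)) : Mat)) * A := by simp only [mul_assoc]
    _ = -((Q : Mat) * A) := by rw [h3, neg_mul]

end Cfsg.Agent.GW.SD
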